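import Cfsg.Agent.INV.HY.Defs

/-! Characteristic subgroups of `T`. -/

set_option autoImplicit false

namespace CL.HY
open Subgroup CL.Fus CL.PComp
open CL.A10.Hd (SL5 cd H0)

namespace Chr

/-- the commutator -/
abbrev cm (x g : T) : T := x * g * x⁻¹ * g⁻¹
theorem nQ : Q0.Normal := ⟨fun x hx g => ind_bits (M := 0) (p := fun g => ∀ x ∈ Q0, g * x * g⁻¹ ∈ Q0) (by simp)
  (fun k hk _ g h x hx => by
    have : ∀ k < 10, ∀ x ∈ Q0, tt (2 ^ k) * x * (tt (2 ^ k))⁻¹ ∈ Q0 := by decide +kernel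
    simpa [mul_assoc] using this k hk _ (h x hx)) (Nat.and_zero _) x hx⟩
theorem c1 : ∀ y : T, (∀ k < 10, ∀ l < 10, cm y (tt (2 ^ k)) * tt (2 ^ l) = tt (2 ^ l) * cm y (tt (2 ^ k))) →
    ∀ x ∈ J0, x * y = y * x := by decide +kernel
theorem c2 : ∀ x : T, x * x = 1 → x ∉ Q0 → x ∉ J0 → ∃ g, x * (g * x * g⁻¹) ≠ g * x * g⁻¹ * x := by decide +kernel
/-- the number of elements of a pattern subgroup that commute with `u` -/
def cnt (M : ℕ) (u : T) : ℕ := ((Finset.range 1024).filter fun n => n &&& M = 0 ∧ tt n * u = u * tt n).card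
theorem c3 : ∀ u : T, u * u = 1 → (u ∉ T12s → cnt 897 u ≤ 8 ∧ cnt 531 u ≤ 16) ∧
    (u ∉ T45s → cnt 531 u ≤ 8 ∧ cnt 897 u ≤ 16) := by decide +kernel
theorem le_cnt {E : Subgroup T} {M : ℕ} {u : T} (h : ∀ x ∈ E, x.n &&& M = 0 ∧ x * u = u * x) : Nat.card E ≤ cnt M u := by
  rw [cnt, ← Nat.card_eq_finsetCard]
  exact Nat.card_le_card_of_injective (fun x => ⟨x.1.n, Finset.mem_filter.2 ⟨Finset.mem_range.2 x.1.lt, (h _ x.2).1, by
    rw [show tt x.1.n = x from tt_val _]; exact (h _ x.2).2⟩⟩) fun x y e => Subtype.ext (T.ext (congrArg Subtype.val e))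
theorem idx (E : Subgroup T) {M : Subgroup T} (h : Nat.card M = 512) : Nat.card E ≤ 2 * Nat.card ↥(E ⊓ M) := by
  have e1 := (M.subgroupOf E).card_mul_index
  have e2 := M.card_mul_index
  have e3 : M.relIndex E ≤ M.relIndex ⊤ :=
    relIndex_le_of_le_right le_top (by rw [relIndex_top_right]; exact index_ne_zero_of_finite)
  rw [relIndex_top_right, relIndex] at e3
  rw [h, T.card] at e2
  rw [← inf_subgroupOf_left, Nat.card_congr (subgroupOfEquivOfLe inf_le_left).toEquiv, inf_subgroupOf_left] at e1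
  rw [← e1, mul_comm]
  exact Nat.mul_le_mul_right _ (by omega)

end Chr

/-- The property `R(x)`: `x² = 1`, `x` commutes with all its conjugates, and `x` does not commute with some `y` of the second centre, is invariant under `φ`; it holds for `e12`, `e45`.
Check: `y` in the second centre (`[y, tt (2 ^ k)]` central for all `k`) ⇒ `y ∈ ⟨z, e14, e25⟩`, which `J0` centralises; `x ∉ J0`, `x ∉ Q0`, `x² = 1` ⇒ `∃ g, ¬ Commute x (g x g⁻¹)`.
So `φ e12, φ e45 ∈ Q0`; `Q0` is normal and its generators are `[·,·]`-words in conjugates of `e12`, `e45` (`pat_le`). -/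
theorem aut_Q (φ : T ≃* T) : ∀ x ∈ Q0, φ x ∈ Q0 := fun x hx => by
  have k : ∀ x y, x * x = 1 → (∀ g, x * (g * x * g⁻¹) = g * x * g⁻¹ * x) → (∀ a, y * a * y⁻¹ * a⁻¹ = 1 ∨ y * a * y⁻¹ * a⁻¹ = z) →
      x * y ≠ y * x → φ x ∈ Q0 := fun x y h1 h2 h3 h4 => by
    by_contra c
    obtain ⟨g, e⟩ := Chr.c2 (φ x) (by rw [← map_mul, h1, map_one]) c fun m => h4 (φ.injective (by
      rw [map_mul, map_mul]
      refine Chr.c1 (φ y) (fun k _ l _ => ?_) _ m
      obtain ⟨a, ea⟩ := φ.surjective (tt (2 ^ k))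
      obtain ⟨b, eb⟩ := φ.surjective (tt (2 ^ l))
      rw [← ea, ← eb]
      simp only [Chr.cm, ← map_mul, ← map_inv]
      rcases h3 a with e | e <;> rw [e]
      exacts [by rw [one_mul, mul_one], by rw [(by decide +kernel : ∀ x, z * x = x * z)]]))
    obtain ⟨g, rfl⟩ := φ.surjective g
    simp only [← map_mul, ← map_inv] at e
    exact e (by rw [h2])
  have n : ∀ x g, φ x ∈ Q0 → φ (x * g * x⁻¹ * g⁻¹) ∈ Q0 := fun x g h => by
    rw [mul_assoc, mul_assoc, ← mul_assoc g, map_mul, map_mul, map_mul, map_inv, map_inv]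
    exact mul_mem h (Chr.nQ.conj_mem _ (inv_mem h) _)
  have a := k e12 e25 (by decide +kernel) (by decide +kernel) (by decide +kernel) (by decide +kernel)
  have b := k e45 e14 (by decide +kernel) (by decide +kernel) (by decide +kernel) (by decide +kernel)
  refine pat_le φ.toMonoidHom (fun k hk hM => ?_) hx
  rcases (by decide +kernel : ∀ k < 10, (176 : ℕ).testBit k = false → tt (2 ^ k) = e12 ∨ tt (2 ^ k) = e45 ∨
    tt (2 ^ k) = Chr.cm e12 e23 ∨ tt (2 ^ k) = Chr.cm (Chr.cm e12 e23) e34 ∨ tt (2 ^ k) = Chr.cm e12 e25 ∨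
    tt (2 ^ k) = Chr.cm e45 e34 ∨ tt (2 ^ k) = Chr.cm (Chr.cm e45 e34) e23) k hk hM with e | e | e | e | e | e | e <;> rw [e]
  exacts [a, b, n _ _ a, n _ _ (n _ _ a), n _ _ a, n _ _ b, n _ _ (n _ _ b)]

theorem norm_le_normQ {G : Type*} [Group G] {τ : T →* G} (hτ : Function.Injective τ) :
    normalizer (τ.range : Set G) ≤ normalizer (QQ τ : Set G) := by
  have k : ∀ g ∈ normalizer (τ.range : Set G), ∀ x ∈ QQ τ, g * x * g⁻¹ ∈ QQ τ := by
    rintro g hg _ ⟨x, hx, rfl⟩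
    let e := MonoidHom.ofInjective hτ
    exact ⟨_, aut_Q (e.trans ((τ.range.normalizerMonoidHom ⟨g, hg⟩).trans e.symm)) x hx,
      MonoidHom.apply_ofInjective_symm hτ _⟩
  exact fun g hg => mem_normalizer_iff.2 fun x => ⟨k g hg x, fun h => by simpa [mul_assoc] using k _ (inv_mem hg) _ h⟩

/-- Involutions of `J0` lie in `F0 ∪ Fp` (decide), so `E ⊓ J0 ≤ F0` or `≤ Fp` (a group is not a union of two proper subgroups). `|T : J0| = 4`. For an involution `u ∉ J0`: `|C_{F0}(u)|, |C_{Fp}(u)| ≤ 16`,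
`|C_{F0}(u)| = 8` if `u ∈ e12 J0`, `|C_{Fp}(u)| = 8` if `u ∈ e45 J0` (decide, as cardinalities of filters). So `E ≤ J0`. -/
theorem elem64 {E : Subgroup T} (h : ∀ x ∈ E, x * x = 1) (hc : 64 ≤ Nat.card E) : E = F0 ∨ E = Fp := by
  have c : ∀ x ∈ E, ∀ y ∈ E, x * y = y * x := fun x hx y hy => by
    rw [← inv_eq_of_mul_eq_one_right (h _ (mul_mem hx hy)), mul_inv_rev, inv_eq_of_mul_eq_one_right (h x hx),
      inv_eq_of_mul_eq_one_right (h y hy)]
  have i1 := Chr.idx E card_T12s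
  have i2 := Chr.idx E card_T45s
  have i3 := Chr.idx (E ⊓ T12s) card_T45s
  have j : ∀ x ∈ E ⊓ T12s ⊓ T45s, x ∈ F0 ∨ x ∈ Fp := fun x hx =>
    (by decide +kernel : ∀ x ∈ T12s, x ∈ T45s → x * x = 1 → x ∈ F0 ∨ x ∈ Fp) x hx.1.2 hx.2 (h x hx.1.1)
  have f : ∀ {M n u}, u ∈ E → Chr.cnt M u ≤ n → (∀ x ∈ E ⊓ T12s ⊓ T45s, x.n &&& M = 0) →
      Nat.card ↥(E ⊓ T12s ⊓ T45s) ≤ n := fun hu e l => (Chr.le_cnt fun x hx => ⟨l x hx, c x hx.1.1 _ hu⟩).trans e
  by_cases a : ∀ x ∈ E ⊓ T12s ⊓ T45s, x ∈ F0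
  · have l1 : E ≤ T12s := fun u hu => by_contra fun n => by
      have := f hu ((Chr.c3 u (h u hu)).1 n).1 a; omega
    have l2 : E ≤ T45s := fun u hu => by_contra fun n => by
      have := f hu ((Chr.c3 u (h u hu)).2 n).2 a
      rw [inf_of_le_left l1] at this; omega
    exact .inl (eq_of_le_of_card_ge (fun x hx => a x ⟨⟨hx, l1 hx⟩, l2 hx⟩) (card_F0 ▸ hc))
  obtain ⟨y, hy, n0⟩ : ∃ y ∈ E ⊓ T12s ⊓ T45s, y ∉ F0 := by simpa only [not_forall, exists_prop] using a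
  replace a : ∀ x ∈ E ⊓ T12s ⊓ T45s, x ∈ Fp := fun x hx => (j x hx).elim (fun m => (j _ (mul_mem hx hy)).elim
    (fun m' => absurd ((mul_mem_cancel_left m).1 m') n0) (mul_mem_cancel_right ((j y hy).resolve_left n0)).1) id
  have l2 : E ≤ T45s := fun u hu => by_contra fun n => by
    have := f hu ((Chr.c3 u (h u hu)).2 n).1 a; omega
  have l1 : E ≤ T12s := fun u hu => by_contra fun n => by
    have := f hu ((Chr.c3 u (h u hu)).1 n).2 a
    rw [inf_right_comm, inf_of_le_left l2] at this; omega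
  exact .inr (eq_of_le_of_card_ge (fun x hx => a x ⟨⟨hx, l1 hx⟩, l2 hx⟩) (card_Fp ▸ hc))

theorem center_T {x : T} (h : ∀ y, Commute x y) : x = 1 ∨ x = z := (by decide +kernel : ∀ x : T, (∀ k < 10, x * tt (2 ^ k) = tt (2 ^ k) * x) → x = 1 ∨ x = z) x fun _ _ => h _

end CL.HY
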