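import Cfsg.Agent.INV.HY.Defs
import Cfsg.Agent.SPOR.A10.HePQ
import Cfsg.Prelude.Def_CaseTheorems
import Cfsg.Agent.INV.HY.P5a

/-! Facts about the model `P5 = 2⁴ : L₄(2)`. -/

set_option autoImplicit false
set_option maxRecDepth 100000

namespace CL.HY
open Subgroup CL.Fus CL.PComp
open CL.A10.Hd (SL5 cd H0 isCode)
open PF CL.K

attribute [local irreducible] cd A10.Hd.mul A10.Hd.qc A10.Hd.qi

/-- bit test: `(cd g).testBit (5 * j + 4)` is the entry `(4, j)` (`CL.F2M.b2z_testBit_mcode`). -/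
theorem mem_P5_code {g : SL5} : g ∈ P5 ↔ cd g &&& 17318416 = 16777216 := by
  rw [mk_iff (by norm_num) (by decide), mem_P5]
  have a : ∀ i j : Fin 5, (17318416 : ℕ).testBit (5 * j + i) = true ↔ i = 4 := by decide
  have b : ∀ j : Fin 5, F2M.b2z ((16777216 : ℕ).testBit (5 * j + (4 : Fin 5))) =
    (1 : Matrix (Fin 5) (Fin 5) (ZMod 2)) 4 j := by decide
  exact ⟨fun h i j e => by rw [(a i j).1 e, b, h], fun h j => by rw [← b, h 4 j ((a 4 j).2 rfl)]⟩
theorem toSL_mem (x : T) : toSL x ∈ P5 := mem_P5_code.2 (by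
  rw [cd_toSL]; exact (by decide +kernel : ∀ x, code x &&& 17318416 = 16777216) x)
theorem H0_le : H0 ≤ P5 := fun g hg => mem_P5_code.2 (by
  have := allH0 chk1 hg
  simp only [Bool.and_eq_true, Nat.beq_eq] at this
  exact this.1.1)
theorem toSL_mem_H0 (x : T) : toSL x ∈ H0 := A10.Hd.mem_H0.2 (by
  rw [← toSL_z, ← map_mul, ← map_mul, (by decide +kernel : ∀ x, x * z = z * x) x])
/-- `cd_sl`, `mem_P5_code`, `A10.Hd.isCode`. -/
theorem codes : cd (sl c12) = c12 ∧ cd (sl c23) = c23 ∧ cd (sl c34) = c34 ∧ cd (sl cr) = cr ∧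
    sl c12 ∈ P5 ∧ sl c23 ∈ H0 ∧ sl c34 ∈ H0 ∧ sl cr ∈ P5 ∧ sl c12 * sl c12 = 1 ∧ sl c23 * sl c23 = 1 ∧
    sl c34 * sl c34 = 1 ∧ sl cr ^ 3 = 1 := by
  have a : cd (sl c12) = c12 := cd_sl (c' := c12) (by norm_num) (by decide +kernel)
  have b : cd (sl c23) = c23 := cd_sl (c' := c23) (by norm_num) (by decide +kernel)
  have c : cd (sl c34) = c34 := cd_sl (c' := c34) (by norm_num) (by decide +kernel)
  have d : cd (sl cr) = cr := cd_sl (c' := cr') (by norm_num) (by decide +kernel)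
  refine ⟨a, b, c, d, mem_P5_code.2 (by rw [a]; decide), A10.Hd.mem_H0.2 (isCode.inj ?_), A10.Hd.mem_H0.2 (isCode.inj ?_),
    mem_P5_code.2 (by rw [d]; decide), isCode.inj ?_, isCode.inj ?_, isCode.inj ?_, isCode.inj ?_⟩ <;>
  simp only [pow_three, ← isCode.map_mul, isCode.map_one, a, b, c, d, A10.Hd.cd_z0] <;> decide +kernel
/-- `conj_iff` and `decide +kernel`. -/
theorem conj12 : ∀ x ∈ T12s, sl c12 * toSL x * (sl c12)⁻¹ = toSL (s12 x) := by simp only [conj_iff, codes.1]; decide +kernel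
theorem conj23 : ∀ x ∈ T23s, sl c23 * toSL x * (sl c23)⁻¹ = toSL (s23 x) := by simp only [conj_iff, codes.2.1]; decide +kernel
theorem conj34 : ∀ x ∈ T34s, sl c34 * toSL x * (sl c34)⁻¹ = toSL (s34 x) := by simp only [conj_iff, codes.2.2.1]; decide +kernel
theorem conjr : ∀ x ∈ T12s, sl cr * toSL x * (sl cr)⁻¹ = toSL (sr x) := by simp only [conj_iff, codes.2.2.2.1]; decide +kernel
/-- An upper unitriangular matrix. -/
theorem mem_range_toSL {g : SL5} : g ∈ toSL.range ↔ A10.Hd.tB (cd g) = true := by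
  refine ⟨by rintro ⟨x, rfl⟩; rw [cd_toSL]; exact (by decide +kernel : ∀ x, A10.Hd.tB (code x) = true) x, fun h => ?_⟩
  have k := (mk_iff (by norm_num) (by decide)).1 (Nat.eq_of_beq_eq_true h)
  have := allH0 chk1 (A10.Hd.mem_H0.2 (Subtype.ext ((A10.Hd.comm_z0_iff g.1).2 ⟨k 1 0 rfl, k 2 0 rfl, k 3 0 rfl, k 4 0 rfl,
    k 4 1 rfl, k 4 2 rfl, k 4 3 rfl, (k 0 0 rfl).trans (k 4 4 rfl).symm⟩)))
  simp only [Bool.and_eq_true, A10.Hd.imp_iff, Nat.beq_eq] at this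
  exact ⟨_, isCode.inj ((cd_toSL _).trans (this.1.2 h))⟩
theorem PF.ker (p : P5) : blk p = 1 ↔ (p : SL5) ∈ AL.map toSL := by
  have m : cd p &&& 17825791 = A10.Hd.one ↔ blk p = 1 := by
    rw [mk_iff (by norm_num) (by decide)]
    refine ⟨fun h => Units.ext (Matrix.ext fun i j => (h _ _ (by revert i j; decide)).trans
      (by rw [Units.val_one, Matrix.one_apply]; revert i j; decide)),
      fun h i j e => ?_⟩
    induction i using Fin.lastCases with
    | last => exact (p.2 j).trans (by revert j; decide)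
    | cast i =>
      induction j using Fin.lastCases with
      | last => exact absurd e (by revert i; decide)
      | cast j => rw [← blk_apply, h, Units.val_one, Matrix.one_apply]; revert i j; decide
  rw [← m]
  refine ⟨fun e => ?_, fun ⟨a, ha, e⟩ => by
    rw [← e, cd_toSL]; exact (by decide +kernel : ∀ a ∈ AL, code a &&& 17825791 = A10.Hd.one) a ha⟩
  obtain ⟨y, e'⟩ := mem_range_toSL.2 (show Nat.beq (cd p &&& 17593311) _ = true by
    rw [show 17593311 = 17825791 &&& 17593311 from rfl, ← Nat.and_assoc, e]; rfl)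
  rw [← e', cd_toSL] at e
  exact ⟨y, (by decide +kernel : ∀ y, code y &&& 17825791 = A10.Hd.one → y ∈ AL) y e, e'⟩
/-- `AL.map toSL` is the set of matrices `1 + (last column)`; `p (1 + v e₅*) p⁻¹ = 1 + (p v) e₅*`. -/
theorem P5_norm {p : SL5} (hp : p ∈ P5) {a : T} (ha : a ∈ AL) : ∃ b ∈ AL, p * toSL a * p⁻¹ = toSL b := by
  obtain ⟨b, hb, e⟩ := (PF.ker (⟨p, hp⟩ * ⟨_, toSL_mem a⟩ * ⟨p, hp⟩⁻¹)).1 (by
    rw [map_mul, map_mul, (PF.ker ⟨_, toSL_mem a⟩).2 ⟨a, ha, rfl⟩, mul_one, map_inv, mul_inv_cancel])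
  exact ⟨b, hb, e.symm⟩
theorem P5_cen {p : SL5} (hp : p ∈ P5) (h : ∀ a ∈ AL, Commute p (toSL a)) : ∃ a ∈ AL, p = toSL a := by
  obtain ⟨a, ha, e⟩ := (PF.ker ⟨p, hp⟩).1 (Units.ext (Matrix.ext fun i k => by
    obtain ⟨a, ha, e⟩ : ∃ a ∈ AL, (toSL a).1 = 1 + Matrix.single k.castSucc 4 1 := by
      simp only [← A10.Hd.mdec_cd, cd_toSL]; revert k; decide +kernel
    have : (p.1 * (toSL a).1) i.castSucc 4 = ((toSL a).1 * p.1) i.castSucc 4 :=
      congrFun (congrFun (congrArg Subtype.val (h a ha).eq) i.castSucc) 4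
    rw [e, mul_add, add_mul, mul_one, one_mul, Matrix.add_apply, Matrix.add_apply, add_right_inj,
      Matrix.mul_single_apply_same, mul_one] at this
    rw [blk_apply, this]
    by_cases c : i = k
    · rw [c, Matrix.single_mul_apply_same, hp 4]; simp
    · rw [Matrix.single_mul_apply_of_ne _ _ _ _ _ (by simpa using c)]; exact (Matrix.one_apply_ne c).symm))
  exact ⟨a, ha, e.symm⟩
/-- `P5 → GL₄(2)` (upper left block) is onto with kernel `AL.map toSL`. -/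
theorem exists_blk : ∃ β : P5 →* GL (Fin 4) (ZMod 2), Function.Surjective β ∧
    (∀ p : P5, β p = 1 ↔ (p : SL5) ∈ AL.map toSL) ∧ ∀ (p : P5) (i j : Fin 4), (β p).1 i j = p.1.1 i.castSucc j.castSucc := ⟨blk, fun g => ⟨_, blk_dg g⟩, PF.ker, blk_apply⟩
theorem card_P5 : Nat.card P5 = 322560 := by
  have e : blk.ker = (AL.map toSL).subgroupOf P5 := Subgroup.ext PF.ker
  rw [← blk.ker.card_mul_index, index_ker, MonoidHom.range_eq_top.2 fun g => ⟨_, blk_dg g⟩, card_top, card_GL4, e,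
    Nat.card_congr (subgroupOfEquivOfLe (by rintro _ ⟨a, -, rfl⟩; exact toSL_mem a)).toEquiv,
    card_map_of_injective toSL_inj, card_A0]
theorem syl_P5 : SylIn 2 toSL.range P5 := by
  have : Fact (Nat.Prime 2) := ⟨Nat.prime_two⟩
  have l : toSL.range ≤ P5 := by rintro _ ⟨a, rfl⟩; exact toSL_mem a
  refine sylIn_of_not_dvd_relIndex l (T.pg.of_surjective _ toSL.rangeRestrict_surjective) ?_
  have := (toSL.range.subgroupOf P5).card_mul_index
  rw [Nat.card_congr (subgroupOfEquivOfLe l).toEquiv, ← Nat.card_congr (MonoidHom.ofInjective toSL_inj).toEquiv, T.card,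
    card_P5] at this
  rw [relIndex]
  omega
/-- `GL₄(2) = PSL₄(2)` is simple (search the library for the simplicity of `PSL`/`SL`; see `A10.Hd.simple_SL5`). -/
theorem P5_normal {K : Subgroup SL5} (h1 : AL.map toSL ≤ K) (h2 : K ≤ P5) (hn : P5 ≤ normalizer (K : Set SL5)) :
    K = AL.map toSL ∨ K = P5 := by
  have := simple_GL4
  have n : (K.subgroupOf P5).Normal := (normal_subgroupOf_iff_le_normalizer h2).2 hn
  rcases (n.map blk fun g => ⟨_, blk_dg g⟩).eq_bot_or_eq_top with e | e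
  · exact .inl (le_antisymm (fun k hk => (PF.ker ⟨k, h2 hk⟩).1 (mem_bot.1 (e.le ⟨_, hk, rfl⟩))) h1)
  refine .inr (le_antisymm h2 fun p hp => ?_)
  obtain ⟨k, hk, e'⟩ := e.ge (mem_top (blk ⟨p, hp⟩))
  have := h1 ((PF.ker (k⁻¹ * ⟨p, hp⟩)).1 (by rw [map_mul, map_inv, e', inv_mul_cancel]))
  exact (mul_mem_cancel_left (inv_mem hk)).1 this
/-- `[K, E] ≤ K ∩ E = 1`, `P5_cen`. -/
theorem P5_odd {K : Subgroup SL5} (h2 : K ≤ P5) (hn : AL.map toSL ≤ normalizer (K : Set SL5))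
    (ho : (Nat.card K).Coprime 2) : K = ⊥ := by
  have b := inf_eq_bot_of_isPGroup_of_coprime ((T.pg.to_subgroup AL).map toSL) ho
  refine eq_bot_iff.2 fun k hk => ?_
  obtain ⟨a, ha, e⟩ := P5_cen (h2 hk) fun a ha => by
    obtain ⟨c, hc, e⟩ := P5_norm (h2 hk) ha
    refine commutatorElement_eq_one_iff_commute.1 (mem_bot.1 (b.le (mem_inf.2 ⟨?_, ?_⟩)))
    · rw [commutatorElement_def, e]; exact mul_mem (mem_map_of_mem _ hc) (inv_mem (mem_map_of_mem _ ha))
    · rw [commutatorElement_def, mul_assoc, mul_assoc, ← mul_assoc (toSL a)]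
      exact mul_mem hk ((mem_normalizer_iff.1 (hn ⟨a, ha, rfl⟩) _).1 (inv_mem hk))
  exact b.le ⟨⟨a, ha, e.symm⟩, hk⟩
/-- `GL₄(2)` is transitive on ordered pairs of distinct non-zero vectors (210 explicit codes, or words in `c12, c23, c34, T`). -/
theorem P5_two {a b : T} (ha : a ∈ AL) (hb : b ∈ AL) (a1 : a ≠ 1) (b1 : b ≠ 1) (ab : a ≠ b) :
    ∃ p ∈ P5, p * toSL z * p⁻¹ = toSL a ∧ p * toSL e25 * p⁻¹ = toSL b := by
  obtain ⟨h1, h2, h3, h4, h5⟩ := chk3 a ha b hb a1 b1 ab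
  have e := cd_sl h1 h2
  exact ⟨sl (tw a b).1, mem_P5_code.2 (by rwa [e]), (conj_iff ..).2 (by rwa [e]), (conj_iff ..).2 (by rwa [e])⟩
/-- it commutes with `z`, so lies in `H0`; `A10.Hd.chkQ2` / `cent_Q0`. -/
theorem cen_Q {p : SL5} (h : ∀ x ∈ Q0, Commute p (toSL x)) : p = 1 ∨ p = toSL z := by
  have hp : p ∈ H0 := A10.Hd.mem_H0.2 (toSL_z ▸ h z (by decide +kernel))
  refine (A10.Hd.cent_Q0 (x := ⟨p, hp⟩) fun y hy => ?_).imp (congrArg Subtype.val) fun e =>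
    (congrArg Subtype.val e).trans toSL_z.symm
  obtain ⟨x, hx, e⟩ := (memQ y).1 hy
  exact Subtype.ext (show p * y = y * p from e ▸ h x hx)
theorem H0_Q {p : SL5} (hp : p ∈ H0) {x : T} (hx : x ∈ Q0) : ∃ y ∈ Q0, p * toSL x * p⁻¹ = toSL y := by
  have := A10.Hd.Q0_normal.conj_mem ⟨_, toSL_mem_H0 x⟩ ((memQ ⟨_, toSL_mem_H0 x⟩).2 ⟨x, hx, rfl⟩) ⟨p, hp⟩
  rwa [memQ] at this
theorem H0_Ap {p : SL5} (hp : p ∈ H0) {x : T} (hx : x ∈ Ap) : ∃ y ∈ Ap, p * toSL x * p⁻¹ = toSL y := by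
  have := allH0 chk1 hp
  simp only [Bool.and_eq_true, force_eq, allLt_iff, Nat.beq_eq, cd_inv hp, ← cd_toSL, isCode.map_mul] at this
  obtain ⟨y, hy, e⟩ := pat_le ((MulAut.conj p).toMonoidHom.comp toSL) (K := Ap.map toSL) (fun k hk hM => by
    have k4 : k < 4 := by revert k; decide
    have e : cd (p * (toSL (tt (2 ^ k)) * p⁻¹)) &&& 32472031 = A10.Hd.one := this.2 k k4
    obtain ⟨y, e'⟩ := mem_range_toSL.2 (show Nat.beq (_ &&& 17593311) _ = true by
      rw [show 17593311 = 32472031 &&& 17593311 from rfl, ← Nat.and_assoc, e]; rfl)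
    rw [← e', cd_toSL] at e
    exact ⟨y, (by decide +kernel : ∀ y, code y &&& 32472031 = A10.Hd.one → y ∈ Ap) y e, e'.trans (mul_assoc ..).symm⟩) hx
  exact ⟨y, hy, e.symm⟩
/-- `p z p⁻¹` is central in `Q`. -/
theorem mem_H0_of {p : SL5} (h : ∀ x ∈ Q0, ∃ y ∈ Q0, p * toSL x * p⁻¹ = toSL y) : p ∈ H0 := by
  have n : p ∈ normalizer (Q0.map toSL : Set SL5) := mem_normalizer_fintype (by
    rintro _ ⟨x, hx, rfl⟩; obtain ⟨y, hy, e⟩ := h x hx; exact ⟨y, hy, e.symm⟩)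
  obtain ⟨y, hy, e⟩ := h z (by decide +kernel)
  rcases cen_Q (p := toSL y) (fun x hx => by
    obtain ⟨x', -, e'⟩ := (mem_normalizer_iff''.1 n _).1 ⟨x, hx, rfl⟩
    have c : Commute (toSL z) (toSL x') := Commute.map ((by decide +kernel : ∀ x, z * x = x * z) x') toSL
    have := c.conj p
    rwa [e, e', show p * (p⁻¹ * toSL x * p) * p⁻¹ = toSL x by group] at this) with k | k
  · rw [k, conj_eq_one_iff, ← map_one toSL] at e
    exact absurd (toSL_inj e) (by decide +kernel)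
  · rw [k, toSL_z] at e
    exact A10.Hd.mem_H0.2 (mul_inv_eq_iff_eq_mul.1 e)
/-- `|H0| = 21504 = 128 · 168`, so `|R ∩ Q| ≥ 16`; `[X, R ∩ Q] ≤ X ∩ Q = 1`; an element of odd order of `H0` that centralises 16 elements of `Q` is trivial
(check with `allH`: `x ^ 21 = 1`, `x ≠ 1` ⇒ at most 8 of the 128 codes `qc i` commute with `x`). -/
theorem H0_odd {X R : Subgroup SL5} (hX : X ≤ H0) (ho : (Nat.card X).Coprime 2) (hR : R ≤ H0) (h2 : IsPGroup 2 R)
    (hc : 128 ≤ Nat.card R) (hn : R ≤ normalizer (X : Set SL5)) : X = ⊥ := by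
  have : Fact (Nat.Prime 2) := ⟨Nat.prime_two⟩
  have q : ∀ x ∈ Q0, A10.Hd.qc (A10.Hd.qi (code x)) = code x := by decide +kernel
  obtain ⟨b, hb, k⟩ := (syl_P5.of_le (by rintro _ ⟨a, rfl⟩; exact toSL_mem_H0 a) H0_le).exists_conj_le hR h2
  obtain ⟨S, hS⟩ : ∃ S : Subgroup T, S = (R.map (MulAut.conj b).toMonoidHom).comap toSL := ⟨_, rfl⟩
  have c1 : 128 ≤ Nat.card S := by
    rwa [← card_map_of_injective (K := S) toSL_inj, hS, map_comap_eq_self (f := toSL) (by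
      rintro _ ⟨r, hr, rfl⟩; exact k r hr),
      card_map_of_injective (f := (MulAut.conj b).toMonoidHom) (MulAut.conj b).injective]
  have c2 : 16 ≤ Nat.card (Q0.subgroupOf S) := by
    have e1 := (Q0.subgroupOf S).card_mul_index
    have e2 := Q0.card_mul_index
    have e3 : Q0.relIndex S ≤ Q0.relIndex ⊤ := relIndex_le_of_le_right le_top (by rw [relIndex_top_right]; exact index_ne_zero_of_finite)
    rw [relIndex_top_right, relIndex] at e3
    rw [card_Q0, T.card] at e2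
    nlinarith
  refine eq_bot_iff.2 fun x hx => mem_bot.2 ?_
  have hg : b * x * b⁻¹ ∈ H0 := mul_mem (mul_mem hb (hX hx)) (inv_mem hb)
  have cm : ∀ y : Q0.subgroupOf S, b * x * b⁻¹ * toSL y = toSL y * (b * x * b⁻¹) := fun ⟨⟨y, hy0⟩, hy⟩ => by
    obtain ⟨r, hr, e⟩ := hS.le hy0
    obtain ⟨y', hy', e'⟩ := H0_Q hg (x := y) hy
    refine commutatorElement_eq_one_iff_mul_comm.1 (mem_bot.1 ((inf_eq_bot_of_isPGroup_of_coprime
      ((T.pg.to_subgroup Q0).map toSL) (coprime_card_map (MulAut.conj b).toMonoidHom ho)).le (mem_inf.2 ⟨?_, ?_⟩)))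
    · rw [commutatorElement_def, e']; exact mul_mem (mem_map_of_mem _ hy') (inv_mem (mem_map_of_mem _ hy))
    · exact ⟨x * (r * x⁻¹ * r⁻¹), mul_mem hx ((mem_normalizer_iff.1 (hn hr) _).1 (inv_mem hx)), by
        rw [commutatorElement_def]; change _ = _ * toSL y * _ * (toSL y)⁻¹; rw [← e]; simp [mul_assoc]⟩
  have o : (orderOf (b * x * b⁻¹)).Coprime 2 :=
    coprime_orderOf_of_mem (coprime_card_map (MulAut.conj b).toMonoidHom ho) ⟨x, hx, rfl⟩
  rw [← conj_eq_one_iff (a := b)]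
  generalize b * x * b⁻¹ = g at hg cm o
  have := allH0 chk2 hg
  simp only [Bool.and_eq_true, force_eq, A10.Hd.imp_iff, Nat.beq_eq, Bool.or_eq_true, Nat.ble_eq, isCode.map_mul,
    ← isCode.map_one, isCode.inj.eq_iff, ← pow_two, ← pow_mul, ← pow_add] at this
  rw [show g * g ^ 2 * (g * g ^ 2) ^ (2 + 2 ^ 2) = g ^ 21 by group] at this
  refine (this.2 (eq_one_of_coprime_of_pow (k := 3) (o.coprime_dvd_left (orderOf_pow_dvd _)) this.1)).resolve_right
    fun l => ?_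
  rw [sumLt_eq, ← card_filter_range_eq_sum _ _ _ fun i _ => ind_eq _ _, ← Nat.card_eq_finsetCard] at l
  have m : ∀ y : Q0.subgroupOf S, A10.Hd.qi (code y) ∈ (Finset.range 128).filter fun i =>
      A10.Hd.mul (cd g) (A10.Hd.qc i) = A10.Hd.mul (A10.Hd.qc i) (cd g) := fun y => by
    rw [Finset.mem_filter, Finset.mem_range, q y y.2, ← cd_toSL, isCode.map_mul, isCode.map_mul, cm]
    exact ⟨A10.Hd.qi_lt _, rfl⟩
  have := Nat.card_le_card_of_injective (fun y => (⟨_, m y⟩ : Finset.filter _ _)) fun y y' e => by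
    have e : A10.Hd.qi (code y) = A10.Hd.qi (code y') := congrArg Subtype.val e
    refine Subtype.ext (Subtype.ext ?_)
    rw [← dec_code y, ← q y y.2, e, q y' y'.2, dec_code]
  omega
/-- `E = AL.map toSL`, `K` = block diagonal matrices. -/
theorem P5_split : ∃ E K : Subgroup P5, E.Normal ∧ Cfsg.IsElementaryAbelian 2 E ∧ Nat.card E = 16 ∧
    centralizer (E : Set P5) = E ∧ E ⊓ K = ⊥ ∧ E ⊔ K = ⊤ ∧ Nonempty (K ≃* GL (Fin 4) (ZMod 2)) := by
  have c : ∀ a ∈ blk.ker, ∀ b ∈ blk.ker, a * b = b * a := fun a ha b hb => by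
    obtain ⟨x, hx, e⟩ := (PF.ker a).1 ha
    obtain ⟨y, hy, e'⟩ := (PF.ker b).1 hb
    refine Subtype.ext (show (a : SL5) * b = b * a from ?_)
    rw [← e, ← e', ← map_mul, ← map_mul, (by decide +kernel : ∀ x ∈ AL, ∀ y ∈ AL, x * y = y * x) x hx y hy]
  refine ⟨blk.ker, dg.range, inferInstance, ⟨⟨⟨fun a b => Subtype.ext (c _ a.2 _ b.2)⟩⟩, fun a ha => ?_⟩, ?_,
    le_antisymm (fun p hp => ?_) fun a ha b hb => c b hb a ha, eq_bot_iff.2 ?_, eq_top_iff.2 fun p _ => ?_,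
    ⟨(MonoidHom.ofInjective (Function.LeftInverse.injective blk_dg)).symm⟩⟩
  · obtain ⟨x, hx, e⟩ := (PF.ker a).1 ha
    refine Subtype.ext (show (a : SL5) ^ 2 = 1 from ?_)
    rw [← e, ← map_pow, pow_two, (by decide +kernel : ∀ x ∈ AL, x * x = 1) x hx, map_one]
  · have := blk.ker.card_mul_index
    rw [index_ker, MonoidHom.range_eq_top.2 fun g => ⟨_, blk_dg g⟩, card_top, card_GL4, card_P5] at this
    omega
  · obtain ⟨a, ha, e⟩ := P5_cen p.2 fun a ha =>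
      (congrArg Subtype.val (hp ⟨_, toSL_mem a⟩ ((PF.ker _).2 ⟨a, ha, rfl⟩))).symm
    exact (PF.ker p).2 ⟨a, ha, e.symm⟩
  · rintro _ ⟨h, g, rfl⟩
    rw [← blk_dg g, MonoidHom.mem_ker.1 h, map_one]; exact one_mem _
  · rw [← inv_mul_cancel_right p (dg (blk p))]
    exact mul_mem (mem_sup_left (by rw [MonoidHom.mem_ker, map_mul, map_inv, blk_dg, mul_inv_cancel])) (mem_sup_right ⟨_, rfl⟩)

end CL.HY
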